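import Mathlib

/-!
Recognition of `S4` and `S4 × 2` among groups of order 24 and 48.
-/

set_option autoImplicit false

namespace Cfsg.Agent.SimsThree

/-- The data: an elementary abelian normal 2-subgroup of index 6 containing every normal
2-subgroup, moved by an element of order 3; squares of 2-elements lie in it and the central ones
among them are trivial. -/
structure RecData {M : Type*} [Group M] (j : ℕ) (C : Subgroup M) (t : M) : Prop where
  card : Nat.card M = 6 * 2 ^ j
  cardC : Nat.card C = 2 ^ j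
  normal : C.Normal
  sq_one : ∀ c ∈ C, c * c = 1
  ord : orderOf t = 3
  moves : ∃ c ∈ C, t * c ≠ c * t
  top : ∀ N : Subgroup M, N.Normal → IsPGroup 2 N → N ≤ C
  sq_mem : ∀ e : M, (∃ n, e ^ 2 ^ n = 1) → e * e ∈ C
  sq_central : ∀ e : M, (∃ n, e ^ 2 ^ n = 1) → (∀ u : M, u * (e * e) = (e * e) * u) → e * e = 1

namespace RecData

variable {M : Type*} [Group M] [Finite M] {j : ℕ} {C : Subgroup M} {t : M} (d : RecData j C t)
include d

omit [Finite M] in
theorem comm_C : ∀ a ∈ C, ∀ b ∈ C, a * b = b * a := by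
  intro a ha b hb
  calc a * b = (a * b)⁻¹ := (inv_eq_of_mul_eq_one_right (d.sq_one _ (mul_mem ha hb))).symm
    _ = b * a := by
      rw [mul_inv_rev, inv_eq_of_mul_eq_one_right (d.sq_one _ ha),
        inv_eq_of_mul_eq_one_right (d.sq_one _ hb)]

/-- The fixed points of the element of order 3. -/
def Fx (_ : RecData j C t) : Subgroup M := C ⊓ Subgroup.centralizer {t}

theorem card_fx : Nat.card d.Fx ∣ 2 ^ j ∧ Nat.card d.Fx ≠ 2 ^ j ∧
    2 ^ j % 3 = Nat.card d.Fx % 3 := by
  haveI := d.normal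
  haveI := Fact.mk Nat.prime_three
  refine ⟨d.cardC ▸ Subgroup.card_dvd_of_le inf_le_left, fun h => ?_, ?_⟩
  · obtain ⟨c, hc, hne⟩ := d.moves
    have e : d.Fx = C := Subgroup.eq_of_le_of_card_ge inf_le_left (by rw [d.cardC, h])
    have : c ∈ d.Fx := e.symm ▸ hc
    exact hne (Subgroup.mem_centralizer_singleton_iff.1 this.2).symm
  · let P : Subgroup M := Subgroup.zpowers t
    letI : MulAction P C := MulAction.compHom C ((MulAut.conjNormal (H := C)).comp P.subtype)
    have hP : IsPGroup 3 P := IsPGroup.of_card (n := 1) (by rw [Nat.card_zpowers, d.ord, pow_one])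
    have h := hP.card_modEq_card_fixedPoints (α := C)
    rw [d.cardC] at h
    have key : ∀ (g : P) (c : C), ((g • c : C) : M) = (g : M) * c * (g : M)⁻¹ := fun _ _ => rfl
    have e : Nat.card (MulAction.fixedPoints P C) = Nat.card d.Fx := by
      refine Nat.card_congr
        { toFun := fun c => ⟨c.1.1, c.1.2, Subgroup.mem_centralizer_singleton_iff.2 ?_⟩
          invFun := fun c => ⟨⟨c.1, c.2.1⟩, fun g => Subtype.ext ?_⟩
          left_inv := fun _ => rfl
          right_inv := fun _ => rfl }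
      · have h1 := congrArg Subtype.val (c.2 ⟨t, Subgroup.mem_zpowers t⟩)
        rw [key, mul_inv_eq_iff_eq_mul] at h1
        exact h1.symm
      · rw [key, mul_inv_eq_iff_eq_mul]
        have hc : Commute c.1 t := Subgroup.mem_centralizer_singleton_iff.1 c.2.2
        obtain ⟨i, hi⟩ := Subgroup.mem_zpowers_iff.1 g.2
        rw [← hi]
        exact ((hc.zpow_right i).eq).symm
    rw [e] at h
    exact h

/-- Four Sylow 3-subgroups, and the kernel of the action on them fixes `t`. -/
theorem sylow_three (hj : j ≤ 3) : Nat.card (Sylow 3 M) = 4 ∧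
    (MulAction.toPermHom M (Sylow 3 M)).ker ≤ d.Fx := by
  haveI := d.normal
  haveI := Fact.mk Nat.prime_three
  have hf : (Nat.card M).factorization 3 = 1 := by
    rw [d.card, show 6 * 2 ^ j = 3 * 2 ^ (j + 1) by ring, Nat.factorization_mul (by norm_num) (by positivity),
      Finsupp.add_apply, Nat.Prime.factorization_self Nat.prime_three,
      Nat.factorization_eq_zero_of_not_dvd]
    intro h
    have := Nat.prime_three.dvd_of_dvd_pow h
    norm_num at this
  let T : Sylow 3 M := Sylow.ofCard (Subgroup.zpowers t) (by rw [Nat.card_zpowers, d.ord, hf, pow_one])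
  have hT : (T : Subgroup M) = Subgroup.zpowers t := rfl
  have hidx : (T : Subgroup M).index = 2 ^ (j + 1) := by
    have h := (T : Subgroup M).card_mul_index
    rw [hT, Nat.card_zpowers, d.ord, d.card] at h
    have : 3 * (Subgroup.zpowers t).index = 3 * 2 ^ (j + 1) := by rw [h]; ring
    exact Nat.eq_of_mul_eq_mul_left (by norm_num) this
  -- elements of `C` normalising `T` commute with `t`
  have hnorm : ∀ c ∈ C, c ∈ Subgroup.normalizer ((T : Subgroup M) : Set M) → c ∈ d.Fx := by
    intro c hc hn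
    refine ⟨hc, Subgroup.mem_centralizer_singleton_iff.2 ?_⟩
    have h1 : c * t * c⁻¹ * t⁻¹ ∈ C := by
      rw [show c * t * c⁻¹ * t⁻¹ = c * (t * c⁻¹ * t⁻¹) by group]
      exact mul_mem hc (d.normal.conj_mem _ (inv_mem hc) t)
    have h2 : c * t * c⁻¹ * t⁻¹ ∈ Subgroup.zpowers t :=
      mul_mem ((Subgroup.mem_normalizer_iff.1 hn t).1 (Subgroup.mem_zpowers t))
        (inv_mem (Subgroup.mem_zpowers t))
    have h3 : orderOf (c * t * c⁻¹ * t⁻¹) ∣ Nat.gcd 3 2 := Nat.dvd_gcd
      (d.ord ▸ orderOf_dvd_of_mem_zpowers h2)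
      (orderOf_dvd_of_pow_eq_one (by rw [pow_two]; exact d.sq_one _ h1))
    rw [show Nat.gcd 3 2 = 1 from rfl, Nat.dvd_one, orderOf_eq_one_iff, mul_inv_eq_one,
      mul_inv_eq_iff_eq_mul] at h3
    exact h3
  have hn1 : Nat.card (Sylow 3 M) ≠ 1 := by
    intro h
    obtain ⟨c, hc, hne⟩ := d.moves
    haveI := (Nat.card_eq_one_iff_unique.1 h).1
    have hc' := hnorm c hc (Sylow.smul_eq_iff_mem_normalizer.1 (Subsingleton.elim (c • T) T))
    exact hne (Subgroup.mem_centralizer_singleton_iff.1 hc'.2).symm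
  have hdvd : Nat.card (Sylow 3 M) ∣ 2 ^ (j + 1) := hidx ▸ Sylow.card_dvd_index T
  have hmod := card_sylow_modEq_one (G := M) (p := 3)
  obtain ⟨i, hi, hcard⟩ := (Nat.dvd_prime_pow Nat.prime_two).1 hdvd
  have h4 : Nat.card (Sylow 3 M) = 4 := by
    rw [hcard] at hn1 hmod ⊢
    by_cases hi4 : i = 4
    · exfalso
      subst hi4
      -- too many: a fixed point normalises `T`
      have hj3 : j = 3 := by omega
      subst hj3
      have hN : (Subgroup.normalizer ((T : Subgroup M) : Set M)) = (T : Subgroup M) := by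
        refine (Subgroup.eq_of_le_of_card_ge Subgroup.le_normalizer ?_).symm
        have h1 := (Subgroup.normalizer ((T : Subgroup M) : Set M)).card_mul_index
        have h6 : (Subgroup.normalizer ((T : Subgroup M) : Set M)).index = 2 ^ 4 :=
          (Sylow.card_eq_index_normalizer T).symm.trans hcard
        rw [h6, d.card] at h1
        have hTc : Nat.card (T : Subgroup M) = 3 := by rw [hT, Nat.card_zpowers, d.ord]
        omega
      obtain ⟨h1, -, h3⟩ := d.card_fx
      have hle : d.Fx ≤ Subgroup.zpowers t := by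
        rw [← hT, ← hN]
        intro c hc
        rw [hT]
        refine Subgroup.mem_normalizer_fintype fun u hu => ?_
        obtain ⟨i, rfl⟩ := Subgroup.mem_zpowers_iff.1 hu
        have hct : Commute c t := Subgroup.mem_centralizer_singleton_iff.1 hc.2
        rw [(hct.zpow_right i).eq, mul_inv_cancel_right]
        exact Subgroup.zpow_mem_zpowers t i
      have h5 := Subgroup.card_dvd_of_le hle
      rw [Nat.card_zpowers, d.ord] at h5
      obtain ⟨a, -, ha⟩ := (Nat.dvd_prime_pow Nat.prime_two).1 h1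
      rw [ha] at h3 h5
      rcases (Nat.dvd_prime Nat.prime_three).1 h5 with h6 | h6
      · rw [h6] at h3; norm_num at h3
      · rw [h6] at h3; norm_num at h3
    have : i < 4 := by omega
    interval_cases i <;> simp_all [Nat.ModEq]
  refine ⟨h4, ?_⟩
  set K := (MulAction.toPermHom M (Sylow 3 M)).ker with hK
  have hKn : ∀ g ∈ K, ∀ Q : Sylow 3 M, g • Q = Q := fun g hg Q => by
    have := congrArg (fun f : Equiv.Perm (Sylow 3 M) => f Q) (MonoidHom.mem_ker.1 hg)
    exact this
  have h2 : IsPGroup 2 K := by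
    obtain ⟨a, ha⟩ : ∃ a, Nat.card K = 2 ^ a := by
      refine ⟨_, Nat.eq_prime_pow_of_unique_prime_dvd (Nat.card_pos (α := K)).ne' fun {q} hq hqd => ?_⟩
      have hq6 : q ∣ 6 * 2 ^ j := d.card ▸ hqd.trans K.card_subgroup_dvd_card
      by_contra hq2
      have hq3 : q = 3 := by
        rcases hq.dvd_mul.1 hq6 with h | h
        · have : q ≤ 6 := Nat.le_of_dvd (by norm_num) h
          interval_cases q <;>
            first | rfl | omega | (norm_num at hq)
        · exact absurd ((Nat.prime_dvd_prime_iff_eq hq Nat.prime_two).1 (hq.dvd_of_dvd_pow h)) hq2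
      subst hq3
      obtain ⟨u, hu⟩ := exists_prime_orderOf_dvd_card' (G := K) 3 hqd
      have hu3 : orderOf (u : M) = 3 := by rw [Subgroup.orderOf_coe, hu]
      have huP : IsPGroup 3 (Subgroup.zpowers (u : M)) :=
        IsPGroup.of_card (n := 1) (by rw [Nat.card_zpowers, hu3, pow_one])
      refine hn1 (Nat.card_eq_one_iff_unique.2 ⟨⟨fun Q R => ?_⟩, ⟨T⟩⟩)
      have hQ : ∀ Q : Sylow 3 M, Subgroup.zpowers (u : M) = (Q : Subgroup M) := fun Q => by
        have hle : Subgroup.zpowers (u : M) ≤ Subgroup.normalizer ((Q : Subgroup M) : Set M) := by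
          rw [Subgroup.zpowers_le]
          exact Sylow.smul_eq_iff_mem_normalizer.1 (hKn _ u.2 Q)
        have h1 := huP.inf_normalizer_sylow Q
        have h1' : Subgroup.zpowers (u : M) ≤ (Q : Subgroup M) := fun v hv => by
          have : v ∈ Subgroup.zpowers (u : M) ⊓ (Q : Subgroup M) := by
            rw [← h1]; exact ⟨hv, hle hv⟩
          exact this.2
        refine Subgroup.eq_of_le_of_card_ge h1' ?_
        rw [Q.card_eq_multiplicity, hf, Nat.card_zpowers, hu3, pow_one]
      exact Sylow.ext ((hQ Q).symm.trans (hQ R))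
    exact IsPGroup.of_card ha
  intro g hg
  exact hnorm g (d.top K inferInstance h2 hg) (Sylow.smul_eq_iff_mem_normalizer.1 (hKn g hg T))

theorem perm_four (hj : j = 2) : Nonempty (M ≃* Equiv.Perm (Fin 4)) := by
  subst hj
  obtain ⟨h4, hker⟩ := d.sylow_three (by norm_num)
  obtain ⟨h1, h2, h3⟩ := d.card_fx
  have hfx : Nat.card d.Fx = 1 := by
    obtain ⟨a, ha, e⟩ := (Nat.dvd_prime_pow Nat.prime_two).1 h1
    rw [e] at h2 h3 ⊢
    interval_cases a <;> simp_all
  have hinj : Function.Injective (MulAction.toPermHom M (Sylow 3 M)) := by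
    rw [← MonoidHom.ker_eq_bot_iff, eq_bot_iff, ← Subgroup.eq_bot_of_card_eq _ hfx]
    exact hker
  haveI := Fintype.ofFinite (Sylow 3 M)
  obtain ⟨e4⟩ : Nonempty (Sylow 3 M ≃ Fin 4) := ⟨Fintype.equivFinOfCardEq (by rw [← Nat.card_eq_fintype_card, h4])⟩
  have hbij : Function.Bijective (MulAction.toPermHom M (Sylow 3 M)) :=
    (Nat.bijective_iff_injective_and_card _).2 ⟨hinj, by
      rw [d.card, Nat.card_congr e4.permCongr, Nat.card_perm, Nat.card_fin]; rfl⟩
  exact ⟨(MulEquiv.ofBijective _ hbij).trans e4.permCongrHom⟩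

theorem perm_four_two (hj : j = 3) :
    Nonempty (M ≃* Equiv.Perm (Fin 4) × Multiplicative (ZMod 2)) := by
  classical
  subst hj
  haveI := d.normal
  haveI := Fact.mk Nat.prime_two
  haveI := Fintype.ofFinite (Sylow 3 M)
  obtain ⟨h4, hker⟩ := d.sylow_three le_rfl
  obtain ⟨h1, h2, h3⟩ := d.card_fx
  have hfx : Nat.card d.Fx = 2 := by
    obtain ⟨a, ha, e⟩ := (Nat.dvd_prime_pow Nat.prime_two).1 h1
    rw [e] at h2 h3 ⊢
    interval_cases a <;> simp_all
  obtain ⟨e4⟩ : Nonempty (Sylow 3 M ≃ Fin 4) := ⟨Fintype.equivFinOfCardEq (by rw [← Nat.card_eq_fintype_card, h4])⟩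
  let f : M →* Equiv.Perm (Fin 4) := e4.permCongrHom.toMonoidHom.comp (MulAction.toPermHom M (Sylow 3 M))
  set K := f.ker with hK
  have hKfx : K ≤ d.Fx := fun g hg => hker (MonoidHom.mem_ker.2 (e4.permCongrHom.injective
    ((MonoidHom.mem_ker.1 hg).trans (map_one _).symm)))
  have hKeq : K = d.Fx := by
    refine Subgroup.eq_of_le_of_card_ge hKfx ?_
    rw [hfx]
    by_contra hlt
    have hK1 : Nat.card K = 1 := by have := Nat.card_pos (α := K); omega
    have := Nat.card_le_card_of_injective f ((MonoidHom.ker_eq_bot_iff f).1 (Subgroup.eq_bot_of_card_eq _ hK1))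
    rw [d.card, Nat.card_perm, Nat.card_fin] at this
    norm_num [Nat.factorial] at this
  have hfc : ∀ z ∈ d.Fx, ∀ u : M, u * z = z * u := by
    intro z hz u
    by_cases hz1 : z = 1
    · rw [hz1, mul_one, one_mul]
    have hn : u * z * u⁻¹ ∈ d.Fx := by
      rw [← hKeq] at hz ⊢
      exact (MonoidHom.normal_ker f).conj_mem z hz u
    obtain ⟨x, y, hxy, huniv⟩ := Nat.card_eq_two_iff.1 hfx
    have key : ∀ w : d.Fx, w ≠ 1 → w = ⟨z, hz⟩ := by
      intro w hw
      have hz' : (⟨z, hz⟩ : d.Fx) ≠ 1 := fun e => hz1 (congrArg Subtype.val e)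
      have hall : ∀ a : d.Fx, a = x ∨ a = y := fun a => by
        have : a ∈ ({x, y} : Set d.Fx) := huniv ▸ Set.mem_univ a
        exact this
      rcases hall 1 with e1 | e1 <;> rcases hall w with e2 | e2 <;>
        rcases hall ⟨z, hz⟩ with e3 | e3 <;>
        first
          | exact e2.trans e3.symm
          | exact absurd (e2.trans e1.symm) hw
          | exact absurd (e3.trans e1.symm) hz'
    have := key ⟨_, hn⟩ (fun e => hz1 (conj_eq_one_iff.1 (congrArg Subtype.val e)))
    exact mul_inv_eq_iff_eq_mul.1 (congrArg Subtype.val this)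
  -- an involution inverting `t`
  set T := Subgroup.zpowers t with hT
  set N := Subgroup.normalizer (T : Set M) with hN
  have hNC : ∀ c ∈ C, c ∈ N → c ∈ d.Fx := by
    intro c hc hn
    refine ⟨hc, Subgroup.mem_centralizer_singleton_iff.2 ?_⟩
    have h1 : c * t * c⁻¹ * t⁻¹ ∈ C := by
      rw [show c * t * c⁻¹ * t⁻¹ = c * (t * c⁻¹ * t⁻¹) by group]
      exact mul_mem hc (d.normal.conj_mem _ (inv_mem hc) t)
    have h2 : c * t * c⁻¹ * t⁻¹ ∈ T :=
      mul_mem ((Subgroup.mem_normalizer_iff.1 hn t).1 (Subgroup.mem_zpowers t))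
        (inv_mem (Subgroup.mem_zpowers t))
    have h3 : orderOf (c * t * c⁻¹ * t⁻¹) ∣ Nat.gcd 3 2 := Nat.dvd_gcd
      (d.ord ▸ orderOf_dvd_of_mem_zpowers h2)
      (orderOf_dvd_of_pow_eq_one (by rw [pow_two]; exact d.sq_one _ h1))
    rw [show Nat.gcd 3 2 = 1 from rfl, Nat.dvd_one, orderOf_eq_one_iff, mul_inv_eq_one,
      mul_inv_eq_iff_eq_mul] at h3
    exact h3
  have hNcard : Nat.card N = 12 := by
    haveI := Fact.mk Nat.prime_three
    have hf : (Nat.card M).factorization 3 = 1 := by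
      rw [d.card, show 6 * 2 ^ 3 = 3 * 2 ^ 4 by norm_num, Nat.factorization_mul (by norm_num) (by norm_num),
        Finsupp.add_apply, Nat.Prime.factorization_self Nat.prime_three,
        Nat.factorization_eq_zero_of_not_dvd (by norm_num)]
    let TS : Sylow 3 M := Sylow.ofCard T (by rw [Nat.card_zpowers, d.ord, hf, pow_one])
    have h5 := N.card_mul_index
    have h6 : N.index = 4 := by rw [← h4, Sylow.card_eq_index_normalizer TS]; rfl
    rw [h6, d.card] at h5
    omega
  obtain ⟨S, hS⟩ := Sylow.exists_subgroup_card_pow_prime (G := N) 2 (n := 2) (by rw [hNcard]; norm_num)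
  obtain ⟨e, he, heC⟩ : ∃ e ∈ S, (e : M) ∉ C := by
    by_contra hc
    push Not at hc
    have hle : S.map N.subtype ≤ d.Fx := by
      rintro _ ⟨e, he, rfl⟩
      exact hNC _ (hc e he) e.2
    have h5 := Subgroup.card_le_of_le hle
    rw [Subgroup.card_map_of_injective N.subtype_injective, hS, hfx] at h5
    norm_num at h5
  set e' : M := ((e : N) : M)
  have hpow : ∃ n, e' ^ 2 ^ n = 1 := by
    obtain ⟨n, hn⟩ := (IsPGroup.of_card hS) ⟨e, he⟩
    exact ⟨n, congrArg (fun v : S => ((v : N) : M)) hn⟩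
  have he2 : e' * e' = 1 :=
    d.sq_central e' hpow (hfc _ (hNC _ (d.sq_mem e' hpow) (mul_mem e.2 e.2)))
  -- the subgroup of index two
  let ψ : C →* C :=
    { toFun := fun c => ⟨c * (t * c * t⁻¹), mul_mem c.2 (d.normal.conj_mem _ c.2 t)⟩
      map_one' := Subtype.ext (by simp)
      map_mul' := fun a b => Subtype.ext (by
        show (a : M) * b * (t * ((a : M) * b) * t⁻¹) = a * (t * a * t⁻¹) * (b * (t * b * t⁻¹))
        have h := d.comm_C b b.2 (t * a * t⁻¹) (d.normal.conj_mem _ a.2 t)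
        calc (a : M) * b * (t * ((a : M) * b) * t⁻¹) = a * (b * (t * a * t⁻¹)) * (t * b * t⁻¹) := by group
          _ = a * ((t * a * t⁻¹) * b) * (t * b * t⁻¹) := by rw [h]
          _ = a * (t * a * t⁻¹) * (b * (t * b * t⁻¹)) := by group) }
  have hψker : ∀ c : C, ψ c = 1 ↔ (c : M) ∈ d.Fx := by
    intro c
    have hcc := d.sq_one c c.2
    constructor
    · intro h
      have h' : (c : M) * (t * c * t⁻¹) = 1 := congrArg Subtype.val h
      have h'' : t * (c : M) * t⁻¹ = c := mul_left_cancel (h'.trans hcc.symm)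
      exact ⟨c.2, Subgroup.mem_centralizer_singleton_iff.2 (mul_inv_eq_iff_eq_mul.1 h'').symm⟩
    · rintro ⟨-, h⟩
      apply Subtype.ext
      show (c : M) * (t * c * t⁻¹) = 1
      rw [← Subgroup.mem_centralizer_singleton_iff.1 h, mul_inv_cancel_right, hcc]
  have hW4 : Nat.card ψ.range = 4 := by
    have h5 : Nat.card ψ.ker = 2 := by
      rw [← hfx]
      exact Nat.card_congr
        { toFun := fun c => ⟨c.1.1, (hψker c.1).1 (MonoidHom.mem_ker.1 c.2)⟩
          invFun := fun c => ⟨⟨c.1, c.2.1⟩, MonoidHom.mem_ker.2 ((hψker _).2 c.2)⟩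
          left_inv := fun _ => rfl
          right_inv := fun _ => rfl }
    have h6 := ψ.ker.card_mul_index
    rw [h5, Subgroup.index_ker, d.cardC] at h6
    norm_num at h6 ⊢
    omega
  set W : Subgroup M := ψ.range.map C.subtype with hW
  have hWC : W ≤ C := Subgroup.map_subtype_le _
  have hWc : Nat.card W = 4 := by rw [hW, Subgroup.card_map_of_injective C.subtype_injective, hW4]
  have hWmem : ∀ w, w ∈ W ↔ ∃ c ∈ C, c * (t * c * t⁻¹) = w := by
    intro w
    constructor
    · rintro ⟨_, ⟨c, rfl⟩, rfl⟩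
      exact ⟨c, c.2, rfl⟩
    · rintro ⟨c, hc, rfl⟩
      exact ⟨_, ⟨⟨c, hc⟩, rfl⟩, rfl⟩
  have hWt : ∀ w ∈ W, t * w * t⁻¹ ∈ W := by
    intro w hw
    obtain ⟨c, hc, rfl⟩ := (hWmem w).1 hw
    exact (hWmem _).2 ⟨t * c * t⁻¹, d.normal.conj_mem _ hc t, by group⟩
  have het : e' * t * e'⁻¹ = t ∨ e' * t * e'⁻¹ = t⁻¹ := by
    have h5 := (Subgroup.mem_normalizer_iff.1 e.2 t).1 (Subgroup.mem_zpowers t)
    obtain ⟨i, hi, h6⟩ : ∃ i < 3, t ^ i = e' * t * e'⁻¹ := by
      obtain ⟨n, hn⟩ := mem_powers_iff_mem_zpowers.2 h5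
      exact ⟨n % 3, Nat.mod_lt _ (by norm_num), by rw [← d.ord, pow_mod_orderOf]; exact hn⟩
    interval_cases i
    · rw [pow_zero] at h6
      have := conj_eq_one_iff.1 h6.symm
      exact absurd d.ord (by rw [this, orderOf_one]; norm_num)
    · exact Or.inl (by rw [← h6, pow_one])
    · refine Or.inr ?_
      rw [← h6]
      apply eq_inv_of_mul_eq_one_left
      rw [← pow_succ, show 2 + 1 = orderOf t by rw [d.ord], pow_orderOf_eq_one]
  have hWe : ∀ w ∈ W, e' * w * e'⁻¹ ∈ W := by
    intro w hw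
    obtain ⟨c, hc, rfl⟩ := (hWmem w).1 hw
    set c' := e' * c * e'⁻¹ with hc'
    have hc'C : c' ∈ C := d.normal.conj_mem _ hc e'
    rw [show e' * (c * (t * c * t⁻¹)) * e'⁻¹ = c' * ((e' * t * e'⁻¹) * c' * (e' * t * e'⁻¹)⁻¹) by
      rw [hc']; group]
    rcases het with h | h <;> rw [h]
    · exact (hWmem _).2 ⟨c', hc'C, rfl⟩
    · refine (hWmem _).2 ⟨t⁻¹ * c' * t, by simpa using d.normal.conj_mem _ hc'C t⁻¹, ?_⟩
      rw [inv_inv, show t * (t⁻¹ * c' * t) * t⁻¹ = c' by group]
      exact d.comm_C _ (by simpa using d.normal.conj_mem _ hc'C t⁻¹) _ hc'C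
  have hWFx : ∀ w ∈ W, w ∈ d.Fx → w = 1 := by
    intro w hw hwF
    by_contra hw1
    -- `t` would fix the two other elements of `W`
    haveI := Fact.mk Nat.prime_three
    let P : Subgroup M := Subgroup.zpowers t
    have hPW : P ≤ Subgroup.normalizer (W : Set M) := by
      rw [Subgroup.zpowers_le]
      exact Subgroup.mem_normalizer_fintype fun u hu => hWt u hu
    letI : MulAction P W := MulAction.compHom W
      ((W.normalizerMonoidHom).comp (Subgroup.inclusion hPW))
    have hP : IsPGroup 3 P := IsPGroup.of_card (n := 1) (by rw [Nat.card_zpowers, d.ord, pow_one])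
    have h := hP.card_modEq_card_fixedPoints (α := W)
    have key : ∀ (g : P) (x : W), ((g • x : W) : M) = (g : M) * x * (g : M)⁻¹ := fun _ _ => rfl
    have hfix : ∀ x : W, x ∈ MulAction.fixedPoints P W ↔ (x : M) ∈ d.Fx := by
      intro x
      constructor
      · intro hx
        refine ⟨hWC x.2, Subgroup.mem_centralizer_singleton_iff.2 ?_⟩
        have h1 := congrArg Subtype.val (hx ⟨t, Subgroup.mem_zpowers t⟩)
        rw [key, mul_inv_eq_iff_eq_mul] at h1
        exact h1.symm
      · intro hx g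
        apply Subtype.ext
        rw [key, mul_inv_eq_iff_eq_mul]
        have hc : Commute (x : M) t := Subgroup.mem_centralizer_singleton_iff.1 hx.2
        obtain ⟨i, hi⟩ := Subgroup.mem_zpowers_iff.1 g.2
        rw [← hi]
        exact ((hc.zpow_right i).eq).symm
    have h7 : Nat.card (MulAction.fixedPoints P W) ≤ 2 := by
      rw [← hfx]
      exact Nat.card_le_card_of_injective (fun x => ⟨x.1.1, (hfix x.1).1 x.2⟩)
        fun a b hab => Subtype.ext (Subtype.ext (congrArg Subtype.val hab : _))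
    have h8 : 1 < Nat.card (MulAction.fixedPoints P W) := by
      rw [Finite.one_lt_card_iff_nontrivial]
      refine ⟨⟨1, (hfix 1).2 (one_mem _)⟩, ⟨⟨w, hw⟩, (hfix _).2 hwF⟩, fun hh => hw1 ?_⟩
      exact (congrArg (fun x : MulAction.fixedPoints P W => (x.1 : M)) hh).symm
    rw [hWc] at h
    obtain h9 : Nat.card (MulAction.fixedPoints P W) = 2 := by omega
    rw [h9] at h
    exact absurd h (by decide)
  set M₀ : Subgroup M := W ⊔ (T ⊔ Subgroup.zpowers e') with hM₀
  have hTn : Subgroup.zpowers e' ≤ Subgroup.normalizer (T : Set M) := by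
    rw [Subgroup.zpowers_le]; exact e.2
  have hWn : T ⊔ Subgroup.zpowers e' ≤ Subgroup.normalizer (W : Set M) := by
    refine sup_le ?_ ?_ <;> rw [Subgroup.zpowers_le]
    · exact Subgroup.mem_normalizer_fintype fun u hu => hWt u hu
    · exact Subgroup.mem_normalizer_fintype fun u hu => hWe u hu
  have hTC : ∀ u ∈ T, u ∈ C → u = 1 := by
    intro u hu huC
    have h5 : orderOf u ∣ Nat.gcd 3 2 := Nat.dvd_gcd (d.ord ▸ orderOf_dvd_of_mem_zpowers hu)
      (orderOf_dvd_of_pow_eq_one (by rw [pow_two]; exact d.sq_one _ huC))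
    rwa [show Nat.gcd 3 2 = 1 from rfl, Nat.dvd_one, orderOf_eq_one_iff] at h5
  have hSC : ∀ u ∈ T, ∀ v ∈ Subgroup.zpowers e', u * v ∈ C → u = 1 ∧ v = 1 := by
    intro u hu v hv huv
    obtain ⟨i, rfl⟩ := Subgroup.mem_zpowers_iff.1 hv
    have hz : e' ^ i = 1 ∨ e' ^ i = e' := by
      rcases Int.even_or_odd i with ⟨m, rfl⟩ | ⟨m, rfl⟩
      · exact Or.inl (by rw [← two_mul, zpow_mul, zpow_two, he2, one_zpow])
      · exact Or.inr (by rw [zpow_add, zpow_mul, zpow_two, he2, one_zpow, one_mul, zpow_one])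
    rcases hz with h | h
    · rw [h] at huv ⊢
      rw [mul_one] at huv
      exact ⟨hTC u hu huv, rfl⟩
    · exfalso
      rw [h] at huv
      apply heC
      have hsq : u * (e' * u * e'⁻¹) ∈ C := by
        have := mul_mem huv huv
        rw [show u * (e' * u * e'⁻¹) = u * e' * (u * e') * (e' * e')⁻¹ by group, he2, inv_one, mul_one]
        exact this
      rcases het with h' | h'
      · have hu2 : u * u ∈ C := by
          obtain ⟨i, rfl⟩ := Subgroup.mem_zpowers_iff.1 hu
          rwa [← conj_zpow, h'] at hsq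
        have : u * u = 1 := hTC _ (mul_mem hu hu) hu2
        have h5 : orderOf u ∣ Nat.gcd 3 2 := Nat.dvd_gcd (d.ord ▸ orderOf_dvd_of_mem_zpowers hu)
          (orderOf_dvd_of_pow_eq_one (by rw [pow_two]; exact this))
        rw [show Nat.gcd 3 2 = 1 from rfl, Nat.dvd_one, orderOf_eq_one_iff] at h5
        rwa [h5, one_mul] at huv
      · -- here `u * e` is an involution, so both it and its conjugate lie in `C`
        by_contra hcon
        have hu1 : u ≠ 1 := fun h5 => hcon (by rwa [h5, one_mul] at huv)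
        obtain ⟨i, hi, rfl⟩ : ∃ i < 3, t ^ i = u := by
          obtain ⟨n, hn⟩ := mem_powers_iff_mem_zpowers.2 hu
          exact ⟨n % 3, Nat.mod_lt _ (by norm_num), by rw [← d.ord, pow_mod_orderOf]; exact hn⟩
        have h3 : t ^ 3 = 1 := by rw [← d.ord, pow_orderOf_eq_one]
        have hconj := d.normal.conj_mem _ huv (t ^ i)
        rw [show t ^ i * (t ^ i * e') * (t ^ i)⁻¹ = t ^ i * t ^ i * (e' * (t ^ i)⁻¹ * e'⁻¹) * e' by group,
          ← inv_pow, ← conj_pow, show e' * t⁻¹ * e'⁻¹ = t by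
            rw [show e' * t⁻¹ * e'⁻¹ = (e' * t * e'⁻¹)⁻¹ by group, h', inv_inv],
          ← pow_add, ← pow_add, show i + i + i = 3 * i by ring, pow_mul, h3, one_pow, one_mul] at hconj
        exact hcon hconj
  have hmem : ∀ g ∈ M₀, ∃ w ∈ W, ∃ u ∈ T, ∃ v ∈ Subgroup.zpowers e', g = w * (u * v) := by
    intro g hg
    rw [hM₀, ← SetLike.mem_coe, Subgroup.coe_mul_of_right_le_normalizer_left _ _ hWn,
      Subgroup.coe_mul_of_right_le_normalizer_left _ _ hTn] at hg
    obtain ⟨w, hw, _, ⟨u, hu, v, hv, rfl⟩, rfl⟩ := hg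
    exact ⟨w, hw, u, hu, v, hv, rfl⟩
  have hdisj : ∀ g ∈ M₀, g ∈ d.Fx → g = 1 := by
    intro g hg hgF
    obtain ⟨w, hw, u, hu, v, hv, rfl⟩ := hmem g hg
    have huv : u * v ∈ C := by simpa using mul_mem (inv_mem (hWC hw)) hgF.1
    obtain ⟨rfl, rfl⟩ := hSC u hu v hv huv
    simp only [mul_one] at hgF ⊢
    exact hWFx w hw hgF
  have hcard0 : Nat.card M₀ = 24 := by
    apply le_antisymm
    · have hle := Nat.card_le_card_of_injective (fun p : M₀ × d.Fx => (p.1 : M) * p.2) (by
        rintro ⟨a, b⟩ ⟨a', b'⟩ hab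
        have hab' : (a : M) * b = a' * b' := hab
        have e1 : ((a' : M))⁻¹ * a = b' * (b : M)⁻¹ := by
          rw [eq_mul_inv_iff_mul_eq, mul_assoc, hab', inv_mul_cancel_left]
        have e2 := hdisj _ (mul_mem (inv_mem a'.2) a.2) (e1 ▸ mul_mem b'.2 (inv_mem b.2))
        rw [inv_mul_eq_one] at e2
        obtain rfl : a = a' := Subtype.ext e2.symm
        exact Prod.ext rfl (Subtype.ext (mul_left_cancel hab')))
      rw [Nat.card_prod, hfx, d.card] at hle
      omega
    · have hTc : Nat.card T = 3 := by rw [Nat.card_zpowers, d.ord]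
      have hec : Nat.card (Subgroup.zpowers e') = 2 := by
        rw [Nat.card_zpowers, orderOf_eq_prime (by rw [pow_two]; exact he2) (fun h => heC (by rw [h]; exact one_mem C))]
      have hle := Nat.card_le_card_of_injective
        (fun p : W × T × Subgroup.zpowers e' => (⟨(p.1 : M) * ((p.2.1 : M) * p.2.2),
          mul_mem (Subgroup.mem_sup_left p.1.2)
            (mul_mem (Subgroup.mem_sup_right (Subgroup.mem_sup_left p.2.1.2))
              (Subgroup.mem_sup_right (Subgroup.mem_sup_right p.2.2.2)))⟩ : M₀)) (by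
        rintro ⟨w, u, v⟩ ⟨w', u', v'⟩ hab
        have hab' : (w : M) * (u * v) = w' * (u' * v') := congrArg Subtype.val hab
        -- compare modulo `C`
        have h5 : ((u' : M))⁻¹ * u * (v * (v' : M)⁻¹) ∈ C := by
          have h6 : ((u' : M) * v') * ((u : M) * v)⁻¹ ∈ C := by
            have : ((u' : M) * v') * ((u : M) * v)⁻¹ = (w' : M)⁻¹ * w := by
              rw [mul_inv_eq_iff_eq_mul, mul_assoc, hab', inv_mul_cancel_left]
            rw [this]; exact hWC (mul_mem (inv_mem w'.2) w.2)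
          have h7 := inv_mem (d.normal.conj_mem _ h6 ((u' : M))⁻¹)
          rwa [show ((u' : M)⁻¹ * ((u' : M) * v' * ((u : M) * v)⁻¹) * (u' : M)⁻¹⁻¹)⁻¹ =
            (u' : M)⁻¹ * u * (v * (v' : M)⁻¹) by group] at h7
        obtain ⟨e1, e2⟩ := hSC _ (mul_mem (inv_mem u'.2) u.2) _ (mul_mem v.2 (inv_mem v'.2)) h5
        rw [inv_mul_eq_one] at e1
        rw [mul_inv_eq_one] at e2
        obtain rfl : u = u' := Subtype.ext e1.symm
        obtain rfl : v = v' := Subtype.ext e2
        exact Prod.ext (Subtype.ext (mul_right_cancel hab')) rfl)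
      rw [Nat.card_prod, Nat.card_prod, hWc, hTc, hec] at hle
      omega
  have hidx : M₀.index = 2 := by
    have h5 := M₀.card_mul_index
    rw [hcard0, d.card] at h5
    omega
  haveI : M₀.Normal := Subgroup.normal_of_index_eq_two hidx
  let q : M ⧸ M₀ ≃* Multiplicative (ZMod 2) := mulEquivOfPrimeCardEq (p := 2) hidx (by simp)
  let F : M →* Equiv.Perm (Fin 4) × Multiplicative (ZMod 2) :=
    f.prod (q.toMonoidHom.comp (QuotientGroup.mk' M₀))
  refine ⟨MulEquiv.ofBijective F ((Nat.bijective_iff_injective_and_card _).2 ⟨?_, ?_⟩)⟩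
  · rw [← MonoidHom.ker_eq_bot_iff, eq_bot_iff]
    intro g hg
    have hg' := MonoidHom.mem_ker.1 hg
    have hgK : g ∈ d.Fx := hKeq ▸ MonoidHom.mem_ker.2 (congrArg Prod.fst hg')
    have hgM : g ∈ M₀ := (QuotientGroup.eq_one_iff g).1
      (q.injective ((congrArg Prod.snd hg').trans (map_one q).symm))
    exact Subgroup.mem_bot.2 (hdisj g hgM hgK)
  · rw [d.card, Nat.card_prod, Nat.card_perm, Nat.card_fin]
    simp [Nat.factorial]

end RecData

end Cfsg.Agent.SimsThree
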