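import Cfsg.Agent.SimsThree.Cases
import Cfsg.Agent.SimsThree.Recognize
import Cfsg.Agent.Suborbit.Dihedral

/-! The isomorphism types of the point stabilisers. -/

set_option autoImplicit false

namespace Cfsg.Agent.SimsThree

open MulAction

variable {G Ω : Type*} [Group G] [Finite G] [MulAction G Ω] {k : ℕ}

namespace Setup

variable (h : Setup G Ω k)
include h

theorem card_core {x : Ω} {D : Subgroup G} (hD : Syl k x D) :
    Nat.card (core (G := G) k x) = 2 ^ (k - 1) := by
  obtain ⟨d, hd, hdc⟩ := h.exists_not_core hD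
  have h1 := card_le_two_mul (h.mul_mem_core hD)
  rw [hD.2] at h1
  obtain ⟨i, hi, e⟩ := (Nat.dvd_prime_pow Nat.prime_two).1 (hD.2 ▸ Subgroup.card_dvd_of_le (core_le hD))
  have hlt : i < k := by
    rcases hi.lt_or_eq with h2 | rfl
    · exact h2
    · exact absurd ((Subgroup.eq_of_le_of_card_ge (core_le hD) (by rw [hD.2, e])).symm ▸ hd) hdc
  rw [e, ← pow_succ'] at h1
  have := (Nat.pow_le_pow_iff_right (show 1 < 2 by norm_num)).1 h1
  rw [e, show i = k - 1 by omega]

theorem core_ne {x y : Ω} {D : Subgroup G} (hx : Syl k x D) (hy : Syl k y D) (hxy : x ≠ y)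
    (hk : 2 ≤ k) : core (G := G) k x ≠ core k y := by
  intro e
  have hb := h.eq_bot_of_normalized hxy (H := core k x) ((core_le hx).trans hx.1)
    (fun g hg u hu => h.core_conj_mem hg hu) (fun g hg u hu => by
      rw [e] at hu ⊢; exact h.core_conj_mem hg hu)
  have h1 := h.card_core hx
  rw [hb, Subgroup.card_bot] at h1
  have := Nat.one_lt_two_pow (show k - 1 ≠ 0 by omega)
  omega

/-- An element of the first core outside the second. -/
theorem exists_core_not {x y : Ω} {D : Subgroup G} (hx : Syl k x D) (hy : Syl k y D) (hxy : x ≠ y)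
    (hk : 2 ≤ k) : ∃ c ∈ core k x, c ∉ core (G := G) k y := by
  by_contra hc
  push Not at hc
  exact h.core_ne hx hy hxy hk
    (Subgroup.eq_of_le_of_card_ge hc (by rw [h.card_core hx, h.card_core hy]))

theorem card_inf_core {x y : Ω} {D : Subgroup G} (hx : Syl k x D) (hy : Syl k y D) (hxy : x ≠ y)
    (hk : 2 ≤ k) : Nat.card (core k x ⊓ core (G := G) k y : Subgroup G) = 2 ^ (k - 2) := by
  obtain ⟨c, hc, hcy⟩ := h.exists_core_not hx hy hxy hk
  have hcx := h.card_core hx
  have h1 : Nat.card (core (G := G) k x) ≤ 2 * Nat.card (core k x ⊓ core (G := G) k y : Subgroup G) :=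
    card_le_two_mul fun u hu v hv hu' hv' =>
      ⟨mul_mem hu hv, h.mul_mem_core hy u (core_le hx hu) v (core_le hx hv)
        (fun e => hu' ⟨hu, e⟩) (fun e => hv' ⟨hv, e⟩)⟩
  obtain ⟨i, hi, e⟩ := (Nat.dvd_prime_pow Nat.prime_two).1
    (hcx ▸ Subgroup.card_dvd_of_le (inf_le_left : core k x ⊓ core (G := G) k y ≤ _))
  have hlt : i < k - 1 := by
    rcases hi.lt_or_eq with h2 | h2
    · exact h2
    · exfalso
      have h3 : core k x ⊓ core (G := G) k y = core k x :=
        Subgroup.eq_of_le_of_card_ge inf_le_left (by rw [hcx, e, h2])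
      rw [← h3] at hc
      exact hcy hc.2
  rw [hcx, e, ← pow_succ'] at h1
  have := (Nat.pow_le_pow_iff_right (show 1 < 2 by norm_num)).1 h1
  rw [e, show i = k - 2 by omega]

theorem sq_mem_core {x : Ω} {D : Subgroup G} (hD : Syl k x D) {e : G} (he : e ∈ D) :
    e * e ∈ core k x := by
  by_cases hc : e ∈ core k x
  · exact mul_mem hc hc
  · exact h.mul_mem_core hD e he e he hc hc

theorem sq_core_le {x y : Ω} {D : Subgroup G} (hx : Syl k x D) (hy : Syl k y D) :
    sq (core (G := G) k x) ≤ core k x ⊓ core k y :=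
  sq_le fun _ hu => ⟨mul_mem hu hu, h.sq_mem_core hy (core_le hx hu)⟩

theorem exists_three (x : Ω) : ∃ t : G, t ∈ stabilizer G x ∧ orderOf t = 3 ∧
    ∀ D : Subgroup G, Syl k x D → t ∉ D := by
  haveI := Fact.mk Nat.prime_three
  obtain ⟨t, ht⟩ := exists_prime_orderOf_dvd_card' (G := stabilizer G x) 3
    (by rw [h.card x]; exact dvd_mul_right _ _)
  have ht' : orderOf (t : G) = 3 := by rw [Subgroup.orderOf_coe, ht]
  refine ⟨t, t.2, ht', fun D hD htD => ?_⟩
  have h1 := Subgroup.orderOf_dvd_natCard D htD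
  rw [ht', hD.2] at h1
  have := Nat.prime_three.dvd_of_dvd_pow h1
  norm_num at this

/-- What commutes with a Sylow subgroup and an element of order 3 is central. -/
theorem central_of_gen {x : Ω} {D : Subgroup G} (hD : Syl k x D) {t r : G} (ht : t ∈ stabilizer G x)
    (htD : t ∉ D) (hrD : ∀ d ∈ D, d * r = r * d) (hrt : t * r = r * t) :
    ∀ u ∈ stabilizer G x, u * r = r * u := by
  have hS : Subgroup.centralizer {r} ⊓ stabilizer G x = stabilizer G x :=
    h.eq_of_lt hD (le_inf (fun d hd => Subgroup.mem_centralizer_singleton_iff.2 (hrD d hd)) hD.1)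
      inf_le_right fun e => htD (e ▸ ⟨Subgroup.mem_centralizer_singleton_iff.2 hrt, ht⟩)
  exact fun u hu => Subgroup.mem_centralizer_singleton_iff.1 (inf_eq_right.1 hS hu)

/-- The cores are elementary abelian. -/
theorem core_sq_one (hk3 : 3 ≤ k) (hk4 : k ≤ 4) {x y : Ω} {D : Subgroup G} (hx : Syl k x D)
    (hy : Syl k y D) (hxy : x ≠ y) : ∀ c ∈ core (G := G) k x, c * c = 1 := by
  intro c hc
  by_contra hne
  have hk : 2 ≤ k := by omega
  set Sx := sq (core (G := G) k x) with hSx
  set Sy := sq (core (G := G) k y) with hSy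
  set X : Subgroup G := core k x ⊓ core k y with hX
  have hnx : Sx ≠ ⊥ := fun e => hne ((Subgroup.eq_bot_iff_forall _).1 e _ (mem_sq hc))
  have hxX : Sx ≤ X := h.sq_core_le hx hy
  have hyX : Sy ≤ X := by rw [hX, inf_comm]; exact h.sq_core_le hy hx
  have hny : ¬ Sx ≤ Sy := fun e => hnx (h.sq_core_eq_bot hxy e)
  have hXc : Nat.card X = 2 ^ (k - 2) := h.card_inf_core hx hy hxy hk
  have hcc : Nat.card Sx = Nat.card Sy := h.card_sq_core x y
  have hSx1 : Nat.card Sx ≠ 1 := fun e => hnx (Subgroup.eq_bot_of_card_eq _ e)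
  obtain ⟨i, hi, hSxc⟩ := (Nat.dvd_prime_pow Nat.prime_two).1 (hXc ▸ Subgroup.card_dvd_of_le hxX)
  have hlt : i < k - 2 := by
    rcases hi.lt_or_eq with h2 | h2
    · exact h2
    · exfalso
      have h3 : Sx = X := Subgroup.eq_of_le_of_card_ge hxX (by rw [hXc, hSxc, h2])
      have h4 : Sy = X := Subgroup.eq_of_le_of_card_ge hyX (by rw [hXc, ← hcc, hSxc, h2])
      exact hny (h3.trans h4.symm).le
  have hi1 : i = 1 := by
    rcases Nat.eq_zero_or_pos i with rfl | h2
    · exact absurd hSxc hSx1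
    · omega
  subst hi1
  have hk' : k = 4 := by omega
  obtain ⟨t, htx, ht3, htD⟩ := h.exists_three x
  have htD' := htD D hx
  -- the two generators
  have two : ∀ {S : Subgroup G}, Nat.card S = 2 → ∃ r ∈ S, r ≠ 1 ∧ ∀ u ∈ S, u = 1 ∨ u = r := by
    intro S hS
    obtain ⟨p, q, hpq, huniv⟩ := Nat.card_eq_two_iff.1 hS
    have hall : ∀ u : S, u = p ∨ u = q := fun u => by
      have : u ∈ ({p, q} : Set S) := huniv ▸ Set.mem_univ u
      exact this
    rcases hall 1 with e | e
    · refine ⟨q, q.2, fun e' => hpq (e.symm.trans (Subtype.ext e'.symm)), fun u hu => ?_⟩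
      rcases hall ⟨u, hu⟩ with e' | e'
      · exact Or.inl (congrArg Subtype.val (e'.trans e.symm))
      · exact Or.inr (congrArg Subtype.val e')
    · refine ⟨p, p.2, fun e' => hpq ((Subtype.ext e' : p = 1).trans e), fun u hu => ?_⟩
      rcases hall ⟨u, hu⟩ with e' | e'
      · exact Or.inr (congrArg Subtype.val e')
      · exact Or.inl (congrArg Subtype.val (e'.trans e.symm))
  obtain ⟨r, hr, hr1, hru⟩ := two (S := Sx) (by rw [hSxc, pow_one])
  obtain ⟨s, hs, hs1, hsu⟩ := two (S := Sy) (by rw [← hcc, hSxc, pow_one])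
  have cent : ∀ {z : Ω} {q : G}, q ≠ 1 → q ∈ sq (core k z) → (∀ u ∈ sq (core k z), u = 1 ∨ u = q) →
      ∀ u ∈ stabilizer G z, u * q = q * u := by
    intro z q hq1 hq huq u hu
    rcases huq _ (h.sq_core_conj hu hq) with e | e
    · exact absurd (conj_eq_one_iff.1 e) hq1
    · exact mul_inv_eq_iff_eq_mul.1 e
  have hrc := cent hr1 hr hru
  have hsc := cent hs1 hs hsu
  have hrs : r ≠ s := fun e => hny fun u hu => by
    rcases hru u hu with rfl | rfl
    · exact one_mem _
    · rw [e]; exact hs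
  have hr2 : r * r = 1 := by
    rcases hru _ (mul_mem hr hr) with e | e
    · exact e
    · exact absurd (mul_eq_left.1 e) hr1
  have hs2 : s * s = 1 := by
    rcases hsu _ (mul_mem hs hs) with e | e
    · exact e
    · exact absurd (mul_eq_left.1 e) hs1
  have hrs' : r * s = s * r := hsc r (hy.1 (core_le hy (hxX hr).2))
  let f : Bool × Bool → X := fun p =>
    ⟨(bif p.1 then r else 1) * (bif p.2 then s else 1),
      mul_mem (by cases p.1 <;> [exact one_mem _; exact hxX hr])
        (by cases p.2 <;> [exact one_mem _; exact hyX hs])⟩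
  have hf : Function.Surjective f := by
    refine ((Nat.bijective_iff_injective_and_card _).2 ⟨?_, ?_⟩).2
    · rintro ⟨p, q⟩ ⟨p', q'⟩ e
      have e' : (bif p then r else 1) * (bif q then s else 1) =
          (bif p' then r else 1) * (bif q' then s else 1) := congrArg Subtype.val e
      cases p <;> cases q <;> cases p' <;> cases q' <;>
        simp only [cond_true, cond_false, one_mul, mul_one, Prod.mk.injEq, reduceCtorEq,
          and_self, and_true, and_false] at e' ⊢ <;>
        first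
          | exact absurd e' hr1 | exact absurd e'.symm hr1 | exact absurd e' hs1
          | exact absurd e'.symm hs1 | exact absurd e' hrs | exact absurd e'.symm hrs
          | exact absurd (mul_eq_left.1 e') hs1 | exact absurd (mul_eq_left.1 e'.symm) hs1
          | exact absurd (mul_eq_right.1 e') hr1 | exact absurd (mul_eq_right.1 e'.symm) hr1
          | exact absurd ((inv_eq_of_mul_eq_one_right hr2).symm.trans (inv_eq_of_mul_eq_one_right e')) hrs
          | exact absurd ((inv_eq_of_mul_eq_one_right hr2).symm.trans (inv_eq_of_mul_eq_one_right e'.symm)) hrs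
    · rw [hXc, hk', Nat.card_prod, Nat.card_eq_fintype_card, Fintype.card_bool]; rfl
  have hXmem : ∀ v ∈ X, v = 1 ∨ v = r ∨ v = s ∨ v = r * s := by
    intro v hv
    obtain ⟨⟨p, q⟩, e⟩ := hf ⟨v, hv⟩
    have e' : (bif p then r else 1) * (bif q then s else 1) = v := congrArg Subtype.val e
    cases p <;> cases q <;> simp only [cond_true, cond_false, one_mul, mul_one] at e' <;>
      simp [← e']
  have hXD : ∀ v ∈ X, ∀ d ∈ D, d * v = v * d := by
    intro v hv d hd
    have hd1 : Commute d r := hrc d (hx.1 hd)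
    have hd2 : Commute d s := hsc d (hy.1 hd)
    rcases hXmem v hv with rfl | rfl | rfl | rfl
    · simp
    · exact hd1
    · exact hd2
    · exact (hd1.mul_right hd2).eq
  have hX2 : ∀ v ∈ X, v * v = 1 := by
    intro v hv
    rcases hXmem v hv with rfl | rfl | rfl | rfl
    · simp
    · exact hr2
    · exact hs2
    · calc r * s * (r * s) = r * (s * r) * s := by group
        _ = r * (r * s) * s := by rw [hrs']
        _ = (r * r) * (s * s) := by group
        _ = 1 := by rw [hr2, hs2, one_mul]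
  have hcX : c ∉ X := fun e => hne (hX2 c e)
  -- no element outside `X` squares to one
  have hout : ∀ u ∈ core k x, u ∉ X → u * u ≠ 1 := by
    intro u hu huX e
    have hv : c * u⁻¹ ∈ X := by
      refine Subgroup.mem_inf.2 ⟨mul_mem hc (inv_mem hu), h.mul_mem_core hy c (core_le hx hc) u⁻¹ (inv_mem (core_le hx hu))
        (fun e' => hcX ⟨hc, e'⟩) fun e' => huX ⟨hu, by simpa using inv_mem e'⟩⟩
    have hcm := hXD _ hv u (core_le hx hu)
    apply hne
    calc c * c = c * u⁻¹ * (u * (c * u⁻¹)) * u := by group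
      _ = (c * u⁻¹) * (c * u⁻¹) * (u * u) := by rw [hcm]; group
      _ = 1 := by rw [hX2 _ hv, e, one_mul]
  have hsX : ∀ g ∈ stabilizer G x, g * s * g⁻¹ ∈ X := by
    intro g hg
    have h1 := h.core_conj_mem hg (hyX hs).1
    by_contra hc'
    refine hout _ h1 hc' ?_
    rw [show g * s * g⁻¹ * (g * s * g⁻¹) = g * (s * s) * g⁻¹ by group, hs2]; group
  have hts : t * s = s * t := by
    rcases hXmem _ (hsX t htx) with e | e | e | e
    · exact absurd (conj_eq_one_iff.1 e) hs1
    · exfalso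
      apply hrs
      calc r = t⁻¹ * (t * r) := by group
        _ = t⁻¹ * (r * t) := by rw [hrc t htx]
        _ = t⁻¹ * (t * s * t⁻¹ * t) := by rw [e]
        _ = s := by group
    · exact mul_inv_eq_iff_eq_mul.1 e
    · exfalso
      have htr : ∀ v : G, t * (r * v) * t⁻¹ = r * (t * v * t⁻¹) := fun v => by
        rw [← mul_assoc t, hrc t htx]; group
      have e2 : t * (t * s * t⁻¹) * t⁻¹ = s := by
        rw [e, htr, e, ← mul_assoc, hr2, one_mul]
      have h3 : t ^ 3 = 1 := by rw [← ht3, pow_orderOf_eq_one]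
      apply hr1
      have e3 : t ^ 3 * s * (t ^ 3)⁻¹ = t * (t * (t * s * t⁻¹) * t⁻¹) * t⁻¹ := by
        simp only [pow_succ, pow_zero, one_mul, mul_inv_rev, mul_assoc]
      rw [h3, e2, e, one_mul, inv_one, mul_one] at e3
      exact right_eq_mul.1 e3
  exact hxy (h.eq_of_central hs1 (hx.1 (core_le hx (hyX hs).1))
    (h.central_of_gen hx htx htD' (hXD s (hyX hs)) hts) hsc)

/-- An element of order 3 moves the core. -/
theorem moves_core (hk3 : 3 ≤ k) (hk4 : k ≤ 4) {x y : Ω} {D : Subgroup G} (hx : Syl k x D)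
    (hy : Syl k y D) (hxy : x ≠ y) {t : G} (htx : t ∈ stabilizer G x) (ht : orderOf t = 3) :
    ∃ c ∈ core k x, t * c ≠ c * t := by
  by_contra hcon
  push Not at hcon
  have hk : 2 ≤ k := by omega
  have hX := h.card_inf_core hx hy hxy hk
  obtain ⟨⟨r, hr⟩, hr1⟩ : ∃ r : (core k x ⊓ core (G := G) k y : Subgroup G), r ≠ 1 := by
    haveI : Nontrivial (core k x ⊓ core (G := G) k y : Subgroup G) :=
      Finite.one_lt_card_iff_nontrivial.1 (by rw [hX]; exact Nat.one_lt_two_pow (by omega))
    exact exists_ne 1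
  have hr1' : r ≠ 1 := fun e => hr1 (Subtype.ext e)
  have key : ∀ {u w : Ω} {E : Subgroup G} {s : G}, Syl k u E → Syl k w E → u ≠ w →
      s ∈ stabilizer G u → orderOf s = 3 → (∀ c ∈ core k u, s * c = c * s) →
      r ∈ core k u → r ∈ core k w → ∀ v ∈ stabilizer G u, v * r = r * v := by
    intro u w E s hu hw huw hsu hs3 hsc hru hrw
    refine h.central_of_gen hu hsu (fun hsE => ?_) ?_ (hsc r hru)
    · have h1 := Subgroup.orderOf_dvd_natCard E hsE
      rw [hs3, hu.2] at h1
      have := Nat.prime_three.dvd_of_dvd_pow h1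
      norm_num at this
    · have hab : ∀ {z : Ω} {a b : G}, (∀ c ∈ core (G := G) k z, c * c = 1) → a ∈ core (G := G) k z → b ∈ core (G := G) k z →
          a * b = b * a := fun {z a b} h2 ha hb => by
        calc a * b = (a * b)⁻¹ := (inv_eq_of_mul_eq_one_right (h2 _ (mul_mem ha hb))).symm
          _ = b * a := by
            rw [mul_inv_rev, inv_eq_of_mul_eq_one_right (h2 _ ha), inv_eq_of_mul_eq_one_right (h2 _ hb)]
      intro d hd
      by_cases hdu : d ∈ core k u
      · exact hab (h.core_sq_one hk3 hk4 hu hw huw) hdu hru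
      obtain ⟨c, hc, hcu⟩ := h.exists_core_not hw hu huw.symm hk
      have hdc := h.mul_mem_core hu d hd c (core_le hw hc) hdu hcu
      have h1 : Commute (d * c) r := hab (h.core_sq_one hk3 hk4 hu hw huw) hdc hru
      have h2 : Commute c⁻¹ r := hab (h.core_sq_one hk3 hk4 hw hu huw.symm) (inv_mem hc) hrw
      have := (h1.mul_left h2).eq
      rwa [mul_inv_cancel_right] at this
  obtain ⟨g, hgy, hgD⟩ := h.syl_transport hx hy
  have h1 := key hx hy hxy htx ht hcon hr.1 hr.2
  have h2 := key hy hx hxy.symm (s := g * t * g⁻¹)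
    (by rw [mem_stabilizer_iff, mul_smul, mul_smul, ← hgy, inv_smul_smul, mem_stabilizer_iff.1 htx])
    (by rw [show g * t * g⁻¹ = MulAut.conj g t from rfl, MulEquiv.orderOf_eq, ht])
    (fun c hc => by
      have hc' : g⁻¹ * c * g ∈ core k x := by
        have := cj_core (k := k) g⁻¹ y hc
        rwa [← hgy, inv_smul_smul, inv_inv] at this
      calc g * t * g⁻¹ * c = g * (t * (g⁻¹ * c * g)) * g⁻¹ := by group
        _ = g * ((g⁻¹ * c * g) * t) * g⁻¹ := by rw [hcon _ hc']
        _ = c * (g * t * g⁻¹) := by group)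
    hr.2 hr.1
  exact hxy (h.eq_of_central hr1' (hx.1 (core_le hx hr.1)) h1 h2)

/-- The nontrivial squares in a common Sylow subgroup are not central. -/
theorem sq_central_one (hk3 : 3 ≤ k) (hk4 : k ≤ 4) {x : Ω} {E : Subgroup G} (hx : Syl k x E) {e : G}
    (he : e ∈ E) (hcen : ∀ u ∈ stabilizer G x, u * (e * e) = e * e * u) : e * e = 1 := by
  by_contra hne
  obtain ⟨y, hyx, hEy⟩ := h.edge x E hx.1 hx.2
  have hy : Syl k y E := ⟨hEy, hx.2⟩
  have hk : 2 ≤ k := by omega
  have e2x := h.core_sq_one hk3 hk4 hx hy hyx.symm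
  have e2y := h.core_sq_one hk3 hk4 hy hx hyx
  obtain ⟨c₀, hc₀, hc₀y⟩ := h.exists_core_not hx hy hyx.symm hk
  obtain ⟨d₀, hd₀, hd₀x⟩ := h.exists_core_not hy hx hyx hk
  have key : ∀ v ∈ E, v * v ≠ 1 → v * v = c₀ * d₀ * (c₀ * d₀) := by
    intro v hv hv2
    have hvx : v ∉ core k x := fun e' => hv2 (e2x v e')
    have hvy : v ∉ core k y := fun e' => hv2 (e2y v e')
    have hd : c₀⁻¹ * v ∈ core k y := h.mul_mem_core hy _ (inv_mem (core_le hx hc₀)) v hv
      (fun e' => hc₀y (by simpa using inv_mem e')) hvy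
    have hdx : c₀⁻¹ * v ∉ core k x := fun e' => hvx (by simpa using mul_mem hc₀ e')
    have hw1 : d₀⁻¹ * (c₀⁻¹ * v) ∈ core k x := h.mul_mem_core hx _ (inv_mem (core_le hy hd₀)) _
      (core_le hy hd) (fun e' => hd₀x (by simpa using inv_mem e')) hdx
    have hw2 : d₀⁻¹ * (c₀⁻¹ * v) ∈ core k y := mul_mem (inv_mem hd₀) hd
    set w := d₀⁻¹ * (c₀⁻¹ * v) with hw
    have hab : ∀ {z : Ω}, (∀ c ∈ core (G := G) k z, c * c = 1) → ∀ a ∈ core (G := G) k z, ∀ b ∈ core (G := G) k z,
        Commute (a : G) b := fun {z} h2 a ha b hb => by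
      show a * b = b * a
      calc a * b = (a * b)⁻¹ := (inv_eq_of_mul_eq_one_right (h2 _ (mul_mem ha hb))).symm
        _ = b * a := by
          rw [mul_inv_rev, inv_eq_of_mul_eq_one_right (h2 _ ha), inv_eq_of_mul_eq_one_right (h2 _ hb)]
    have hcom : w * (c₀ * d₀) = c₀ * d₀ * w :=
      ((hab e2x w hw1 c₀ hc₀).mul_right (hab e2y w hw2 d₀ hd₀)).eq
    calc v * v = c₀ * d₀ * (w * (c₀ * d₀)) * w := by rw [hw]; group
      _ = c₀ * d₀ * (c₀ * d₀) * (w * w) := by rw [hcom]; group
      _ = c₀ * d₀ * (c₀ * d₀) := by rw [e2x w hw1, mul_one]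
  obtain ⟨g, hgy, hgE⟩ := h.syl_transport hx hy
  have hge : g * e * g⁻¹ ∈ E := hgE ▸ conj_mem_cj he
  have h1 : g * (e * e) * g⁻¹ = e * e := by
    rw [key e he hne, show g * (c₀ * d₀ * (c₀ * d₀)) * g⁻¹ = g * (e * e) * g⁻¹ by rw [key e he hne],
      show g * (e * e) * g⁻¹ = g * e * g⁻¹ * (g * e * g⁻¹) by group]
    refine key _ hge fun e' => hne ?_
    rw [show e * e = g⁻¹ * (g * e * g⁻¹ * (g * e * g⁻¹)) * g by group, e']
    group
  refine hyx (h.eq_of_central hne (hx.1 (mul_mem he he)) hcen fun u hu => ?_).symm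
  have hu' : g⁻¹ * u * g ∈ stabilizer G x := by
    rw [mem_stabilizer_iff, mul_smul, mul_smul, hgy, mem_stabilizer_iff.1 hu, ← hgy, inv_smul_smul]
  have h2 := hcen _ hu'
  rw [← h1]
  calc u * (g * (e * e) * g⁻¹) = g * ((g⁻¹ * u * g) * (e * e)) * g⁻¹ := by group
    _ = g * (e * e * (g⁻¹ * u * g)) * g⁻¹ := by rw [h2]
    _ = g * (e * e) * g⁻¹ * u := by group

/-- A 2-subgroup of a point stabiliser lies in a Sylow subgroup; a normal one lies in the core. -/
theorem two_subgroup (x : Ω) (N : Subgroup (stabilizer G x)) (hN : IsPGroup 2 N) :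
    (∃ E, Syl k x E ∧ N.map (stabilizer G x).subtype ≤ E) ∧
      (N.Normal → N.map (stabilizer G x).subtype ≤ core k x) := by
  haveI := Fact.mk Nat.prime_two
  have hf : (Nat.card (stabilizer G x)).factorization 2 = k := by
    rw [h.card x, Nat.factorization_mul (by norm_num) (by positivity), Finsupp.add_apply,
      Nat.Prime.factorization_pow Nat.prime_two, Finsupp.single_eq_same,
      Nat.factorization_eq_zero_of_not_dvd (by norm_num : ¬ 2 ∣ 3), zero_add]
  obtain ⟨P, hP⟩ := hN.exists_le_sylow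
  have hPE : Syl k x ((P : Subgroup (stabilizer G x)).map (stabilizer G x).subtype) :=
    ⟨Subgroup.map_subtype_le _, by
      rw [Subgroup.card_map_of_injective (stabilizer G x).subtype_injective, P.card_eq_multiplicity, hf]⟩
  refine ⟨⟨_, hPE, Subgroup.map_mono hP⟩, fun hn => le_iInf fun E => ?_⟩
  obtain ⟨g, hg, hgE⟩ := h.syl_conj hPE E.2
  rintro _ ⟨v, hv, rfl⟩
  rw [← hgE, mem_cj]
  exact ⟨_, hP (hn.conj_mem' v hv ⟨g, hg⟩), rfl⟩

theorem recData (hk3 : 3 ≤ k) (hk4 : k ≤ 4) (x : Ω) :
    ∃ t : stabilizer G x, RecData (k - 1) ((core (G := G) k x).subgroupOf (stabilizer G x)) t := by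
  obtain ⟨D, hx⟩ := h.exists_syl x
  obtain ⟨y, hyx, hDy⟩ := h.edge x D hx.1 hx.2
  have hy : Syl k y D := ⟨hDy, hx.2⟩
  obtain ⟨t, htx, ht3, -⟩ := h.exists_three x
  refine ⟨⟨t, htx⟩, ?_, ?_, ⟨fun c hc g => h.core_conj_mem g.2 hc⟩,
    fun c hc => Subtype.ext (h.core_sq_one hk3 hk4 hx hy hyx.symm c.1 hc),
    by rw [← Subgroup.orderOf_coe]; exact ht3, ?_,
    fun N hn hN => fun v hv => (h.two_subgroup x N hN).2 hn ⟨v, hv, rfl⟩, fun e he => ?_,
    fun e he hc => ?_⟩
  · rw [h.card x, show 6 * 2 ^ (k - 1) = 3 * 2 ^ (k - 1 + 1) by ring, show k - 1 + 1 = k by omega]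
  · rw [Nat.card_congr (Subgroup.subgroupOfEquivOfLe ((core_le hx).trans hx.1)).toEquiv, h.card_core hx]
  · obtain ⟨c, hc, hne⟩ := h.moves_core hk3 hk4 hx hy hyx.symm htx ht3
    exact ⟨⟨c, hx.1 (core_le hx hc)⟩, hc, fun e => hne (congrArg Subtype.val e)⟩
  all_goals
    have hp : IsPGroup 2 (Subgroup.zpowers e) := by
      obtain ⟨n, hn⟩ := he
      obtain ⟨m, -, hm⟩ := (Nat.dvd_prime_pow Nat.prime_two).1 (orderOf_dvd_of_pow_eq_one hn)
      exact IsPGroup.of_card (n := m) (by rw [Nat.card_zpowers, hm])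
    obtain ⟨E, hE, hle⟩ := (h.two_subgroup x _ hp).1
    have heE : (e : G) ∈ E := hle ⟨e, Subgroup.mem_zpowers e, rfl⟩
  · exact h.sq_mem_core hE heE
  · exact Subtype.ext (h.sq_central_one hk3 hk4 hE heE fun u hu => congrArg Subtype.val (hc ⟨u, hu⟩))

theorem stabilizer_two (hk : k = 2) (x : Ω) : Nonempty (stabilizer G x ≃* DihedralGroup 6) := by
  subst hk
  obtain ⟨D, hx⟩ := h.exists_syl x
  obtain ⟨y, hyx, hDy⟩ := h.edge x D hx.1 hx.2
  have hy : Syl 2 y D := ⟨hDy, hx.2⟩
  obtain ⟨t, htx, ht3, htD'⟩ := h.exists_three x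
  have htD := htD' D hx
  obtain ⟨d, hd, hdx⟩ := h.exists_core_not hy hx hyx le_rfl
  have hdD : d ∈ D := core_le hy hd
  obtain ⟨z, hz, hzy⟩ := h.exists_core_not hx hy hyx.symm le_rfl
  have hord : ∀ {w : Ω} {E : Subgroup G}, Syl 2 w E → ∀ u ∈ core (G := G) 2 w, u * u = 1 ∧
      ∀ v ∈ core (G := G) 2 w, v = 1 ∨ u = 1 ∨ v = u := by
    intro w E hw u hu
    have hc := h.card_core hw
    norm_num at hc
    refine ⟨?_, fun v hv => ?_⟩
    · have h1 := Subgroup.orderOf_dvd_natCard _ hu
      rw [hc] at h1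
      rw [← pow_two]
      exact orderOf_dvd_iff_pow_eq_one.1 h1
    · obtain ⟨p, q, -, huniv⟩ := Nat.card_eq_two_iff.1 hc
      have hall : ∀ a : core (G := G) 2 w, a = p ∨ a = q := fun a => by
        have : a ∈ ({p, q} : Set (core (G := G) 2 w)) := huniv ▸ Set.mem_univ a
        exact this
      rcases hall 1 with e1 | e1 <;> rcases hall ⟨u, hu⟩ with e2 | e2 <;>
        rcases hall ⟨v, hv⟩ with e3 | e3 <;>
        first
          | exact Or.inl (congrArg Subtype.val (e3.trans e1.symm))
          | exact Or.inr (Or.inl (congrArg Subtype.val (e2.trans e1.symm)))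
          | exact Or.inr (Or.inr (congrArg Subtype.val (e3.trans e2.symm)))
  have hz1 : z ≠ 1 := fun e => hzy (e ▸ one_mem _)
  have hz2 := (hord hx z hz).1
  have hd2 := (hord hy d hd).1
  have hcz : ∀ u ∈ stabilizer G x, Commute u z := by
    intro u hu
    rcases (hord hx z hz).2 _ (h.core_conj_mem hu hz) with e | e | e
    · exact absurd (conj_eq_one_iff.1 e) hz1
    · exact absurd e hz1
    · exact mul_inv_eq_iff_eq_mul.1 e
  set M := stabilizer G x
  let T : M := ⟨t, htx⟩
  let Z : M := ⟨z, hx.1 (core_le hx hz)⟩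
  let S : M := ⟨d, hx.1 hdD⟩
  have hTZ : Commute T Z := Subtype.ext (hcz t htx)
  have hT : orderOf T = 3 := by rw [← Subgroup.orderOf_coe]; exact ht3
  have hZ : orderOf Z = 2 := by
    rw [← Subgroup.orderOf_coe]
    exact orderOf_eq_prime (by rw [pow_two]; exact hz2) hz1
  set X : M := T * Z with hXdef
  have hX : orderOf X = 6 := by
    rw [hXdef, hTZ.orderOf_mul_eq_mul_orderOf_of_coprime (by rw [hT, hZ]; norm_num), hT, hZ]
  have hX6 : X ^ 6 = 1 := by rw [← hX, pow_orderOf_eq_one]
  have hS2 : S * S = 1 := Subtype.ext hd2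
  have hX3 : X ^ 3 = Z := by
    rw [hXdef, hTZ.mul_pow, show T ^ 3 = 1 by rw [← hT, pow_orderOf_eq_one], one_mul, pow_succ,
      pow_two, show Z * Z = 1 from Subtype.ext hz2, one_mul]
  have hX4 : X ^ 4 = T := by
    rw [hXdef, hTZ.mul_pow, show T ^ 4 = T ^ 3 * T from pow_succ T 3,
      show T ^ 3 = 1 by rw [← hT, pow_orderOf_eq_one], one_mul,
      show (4 : ℕ) = 2 * 2 from rfl, pow_mul, pow_two Z, show Z * Z = 1 from Subtype.ext hz2,
      one_pow, mul_one]
  have hidx : (Subgroup.zpowers X).index = 2 := by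
    have h1 := (Subgroup.zpowers X).card_mul_index
    rw [Nat.card_zpowers, hX, h.card x] at h1
    omega
  haveI := Subgroup.normal_of_index_eq_two hidx
  obtain ⟨i, hi, hSX⟩ : ∃ i < 6, X ^ i = S * X * S⁻¹ := by
    obtain ⟨n, hn⟩ := mem_powers_iff_mem_zpowers.2
      (‹(Subgroup.zpowers X).Normal›.conj_mem X (Subgroup.mem_zpowers X) S)
    exact ⟨n % 6, Nat.mod_lt _ (by norm_num), by rw [← hX, pow_mod_orderOf]; exact hn⟩
  have hinv : S * X * S = X⁻¹ := by
    have hSi : S⁻¹ = S := inv_eq_of_mul_eq_one_right hS2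
    rw [hSi] at hSX
    have ho : orderOf (X ^ i) = 6 := by
      rw [hSX]
      conv_lhs => rw [show S * X * S = MulAut.conj S X by rw [MulAut.conj_apply, hSi]]
      rw [MulEquiv.orderOf_eq, hX]
    rw [← hSX]
    interval_cases i
    · simp at ho
    · -- `d` would centralise `t`
      exfalso
      rw [pow_one] at hSX
      have hSc : Commute S X := by
        show S * X = X * S
        conv_rhs => rw [hSX]
        rw [mul_assoc (S * X), hS2, mul_one]
      have hST : Commute d t := by
        have := (hSc.pow_right 4).eq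
        rw [hX4] at this
        exact congrArg Subtype.val this
      have hDz : ∀ v ∈ D, v = 1 ∨ v = z ∨ v = d ∨ v = d * z := by
        intro v hv
        by_cases hvx : v ∈ core 2 x
        · rcases (hord hx z hz).2 v hvx with e | e | e
          · exact Or.inl e
          · exact absurd e hz1
          · exact Or.inr (Or.inl e)
        · rcases (hord hx z hz).2 _ (h.mul_mem_core hx d hdD v hv hdx hvx) with e | e | e
          · refine Or.inr (Or.inr (Or.inl ?_))
            calc v = d * d * v := by rw [hd2, one_mul]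
              _ = d := by rw [mul_assoc, e, mul_one]
          · exact absurd e hz1
          · refine Or.inr (Or.inr (Or.inr ?_))
            calc v = d * d * v := by rw [hd2, one_mul]
              _ = d * z := by rw [mul_assoc, e]
      have hcent : ∀ v ∈ D, Commute t v := by
        intro v hv
        rcases hDz v hv with rfl | rfl | rfl | rfl
        · exact Commute.one_right t
        · exact hcz t htx
        · exact hST.symm
        · exact hST.symm.mul_right (hcz t htx)
      obtain ⟨E, hE, hne⟩ := h.exists_other hx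
      obtain ⟨g, hg, hgE⟩ := h.syl_conj hx hE
      have hN : Subgroup.normalizer (D : Set G) ⊓ M = M := h.eq_of_lt hx
        (le_inf Subgroup.le_normalizer hx.1) inf_le_right fun e => htD (e ▸ ⟨?_, htx⟩)
      · apply hne
        rw [← hgE]
        have hgn := (inf_eq_right.1 hN) hg
        ext u
        rw [mem_cj]
        exact (Subgroup.mem_normalizer_iff''.1 hgn u).symm
      · show t ∈ Subgroup.normalizer (D : Set G)
        rw [Subgroup.mem_normalizer_iff]
        intro v
        constructor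
        · intro hv
          rw [(hcent v hv).eq, mul_inv_cancel_right]; exact hv
        · intro hv
          have := (hcent _ hv).eq
          have e' : t * v * t⁻¹ = v := by
            calc t * v * t⁻¹ = t⁻¹ * (t * (t * v * t⁻¹)) := by group
              _ = t⁻¹ * (t * v * t⁻¹ * t) := by rw [this]
              _ = v := by group
          rwa [e'] at hv
    · exfalso; rw [orderOf_pow, hX] at ho; norm_num at ho
    · exfalso; rw [orderOf_pow, hX] at ho; norm_num at ho
    · exfalso; rw [orderOf_pow, hX] at ho; norm_num at ho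
    · refine eq_inv_of_mul_eq_one_left ?_
      rw [← pow_succ]
      exact hX6
  let φ := Suborbit.dihedralHom (n := 6) X S hX6 hS2 hinv
  refine ⟨(MulEquiv.ofBijective φ ((Nat.bijective_iff_surjective_and_card _).2
    ⟨MonoidHom.range_eq_top.1 ?_, ?_⟩)).symm⟩
  · have hr : X ∈ φ.range := ⟨_, Suborbit.dihedralHom_r_one X S hX6 hS2 hinv⟩
    have hs : S ∈ φ.range := ⟨_, Suborbit.dihedralHom_sr_zero X S hX6 hS2 hinv⟩
    have hle : φ.range.map M.subtype = M := by
      refine h.eq_of_lt hx ?_ (Subgroup.map_subtype_le _) ?_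
      · intro v hv
        by_cases hvx : v ∈ core 2 x
        · rcases (hord hx z hz).2 v hvx with e | e | e
          · exact ⟨1, one_mem _, e.symm⟩
          · exact absurd e hz1
          · exact ⟨Z, hX3 ▸ pow_mem hr 3, e.symm⟩
        · rcases (hord hx z hz).2 _ (h.mul_mem_core hx d hdD v hv hdx hvx) with e | e | e
          · refine ⟨S, hs, ?_⟩
            show d = v
            calc d = d * (d * v) := by rw [e, mul_one]
              _ = v := by rw [← mul_assoc, hd2, one_mul]
          · exact absurd e hz1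
          · refine ⟨S * Z, mul_mem hs (hX3 ▸ pow_mem hr 3), ?_⟩
            show d * z = v
            rw [← e, ← mul_assoc, hd2, one_mul]
      · intro e
        exact htD (e ▸ ⟨T, hX4 ▸ pow_mem hr 4, rfl⟩)
    refine eq_top_iff.2 fun u _ => ?_
    have : (u : G) ∈ φ.range.map M.subtype := hle.symm ▸ u.2
    obtain ⟨u', hu', e⟩ := this
    rwa [← Subtype.ext e]
  · rw [DihedralGroup.nat_card, h.card x]
    norm_num

theorem stabilizer_one (hk : k = 1) (x : Ω) : Nonempty (stabilizer G x ≃* Equiv.Perm (Fin 3)) := by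
  classical
  subst hk
  obtain ⟨D, hx⟩ := h.exists_syl x
  obtain ⟨y, hyx, hDy⟩ := h.edge x D hx.1 hx.2
  have hy : Syl 1 y D := ⟨hDy, hx.2⟩
  set M := stabilizer G x
  have hst : ∀ u : M, u • y = y ↔ (u : G) ∈ D := by
    intro u
    rw [← h.stabilizer_inf hyx.symm hx hy]
    exact ⟨fun e => ⟨u.2, e⟩, fun e => e.2⟩
  have hstab : Nat.card (stabilizer M y) = 2 := by
    have h1 : Nat.card (stabilizer M y) = Nat.card D := Nat.card_congr
      { toFun := fun u => ⟨u.1.1, (hst u.1).1 u.2⟩
        invFun := fun u => ⟨⟨u.1, hx.1 u.2⟩, (hst ⟨u.1, hx.1 u.2⟩).2 u.2⟩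
        left_inv := fun _ => rfl
        right_inv := fun _ => rfl }
    rw [h1, hx.2, pow_one]
  have horb : Nat.card (orbit M y) = 3 := by
    haveI := Fintype.ofFinite G
    have h1 := MulAction.index_stabilizer M y
    have h2 := (stabilizer M y).card_mul_index
    rw [hstab, h.card x, h1, ← Nat.card_coe_set_eq] at h2
    omega
  haveI : Finite (orbit M y) := Nat.finite_of_card_ne_zero (by rw [horb]; norm_num)
  haveI := Fintype.ofFinite (orbit M y)
  let f := MulAction.toPermHom M (orbit M y)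
  obtain ⟨e3⟩ : Nonempty (orbit M y ≃ Fin 3) :=
    ⟨Fintype.equivFinOfCardEq (by rw [← Nat.card_eq_fintype_card, horb])⟩
  have hinj : Function.Injective f := by
    rw [← MonoidHom.ker_eq_bot_iff, eq_bot_iff]
    intro u hu
    have hcore : (u : G) ∈ core 1 x := by
      refine Subgroup.mem_iInf.2 fun E => ?_
      obtain ⟨g, hg, hgE⟩ := h.syl_conj hx E.2
      rw [← hgE, mem_cj]
      have h1 := congrArg (fun p : Equiv.Perm (orbit M y) => (p ⟨(⟨g, hg⟩ : M) • y, mem_orbit _ _⟩).1)
        (MonoidHom.mem_ker.1 hu)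
      have h2 : (u : G) • g • y = g • y := h1
      refine (hst ⟨g⁻¹ * (u : G) * g, mul_mem (mul_mem (inv_mem hg) u.2) hg⟩).1 ?_
      show (g⁻¹ * (u : G) * g) • y = y
      rw [mul_smul, mul_smul, h2, inv_smul_smul]
    have hc := h.card_core hx
    rw [show (1 : ℕ) - 1 = 0 from rfl, pow_zero] at hc
    rw [Subgroup.eq_bot_of_card_eq _ hc, Subgroup.mem_bot] at hcore
    exact Subgroup.mem_bot.2 (Subtype.ext hcore)
  exact ⟨(MulEquiv.ofBijective f ((Nat.bijective_iff_injective_and_card _).2 ⟨hinj, by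
    rw [h.card x, Nat.card_congr e3.permCongr, Nat.card_perm, Nat.card_fin]; rfl⟩)).trans e3.permCongrHom⟩

/-- The five possibilities. -/
theorem stabilizer_cases (x : Ω) :
    Nonempty (stabilizer G x ≃* Equiv.Perm (Fin 3)) ∨ Nonempty (stabilizer G x ≃* DihedralGroup 6) ∨
    Nonempty (stabilizer G x ≃* Equiv.Perm (Fin 4)) ∨
    Nonempty (stabilizer G x ≃* Equiv.Perm (Fin 4) × Multiplicative (ZMod 2)) := by
  have hk := h.pos
  have h16 := h.two_pow_le x
  have hk4 : k ≤ 4 := (Nat.pow_le_pow_iff_right (show 1 < 2 by norm_num)).1 (h16.trans_eq (by norm_num))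
  rcases (show k = 1 ∨ k = 2 ∨ k = 3 ∨ k = 4 by omega) with e | e | e | e
  · exact Or.inl (h.stabilizer_one e x)
  · exact Or.inr (Or.inl (h.stabilizer_two e x))
  · obtain ⟨t, d⟩ := h.recData (by omega) hk4 x
    exact Or.inr (Or.inr (Or.inl (d.perm_four (by omega))))
  · obtain ⟨t, d⟩ := h.recData (by omega) hk4 x
    exact Or.inr (Or.inr (Or.inr (d.perm_four_two (by omega))))

end Setup

end Cfsg.Agent.SimsThree
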